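import Cfsg.Agent.H81.Flavell

/-! Bartels' theorem: the subgroups strongly conjugate to `X` generate the subnormal closure. -/

set_option autoImplicit false

namespace Cfsg.Agent.BART

open Subgroup H44 H72 H81

universe u

theorem cj_subgroupOf {G : Type u} [Group G] (X H : Subgroup G) (g : H) :
    cj g (X.subgroupOf H) = (cj (g : G) X).subgroupOf H := by
  ext x
  rw [mem_cj, mem_subgroupOf, mem_subgroupOf, mem_cj]
  rfl

theorem aux (n : ℕ) : ∀ (G : Type u) [Group G] [Finite G], Nat.card G = n →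
    ∀ X Y : Subgroup G, NC X ⊤ → (∀ g : G, g ∈ X ⊔ cj g X → cj g X ≤ Y) → Y = ⊤ := by
  induction n using Nat.strong_induction_on with
  | _ n ih =>
  intro G _ _ hn X Y hX hY
  by_contra hYt
  have hXY : X ≤ Y := by
    have := hY 1 (one_mem _)
    rwa [cj_one] at this
  have hXt : X ≠ ⊤ := fun e => hYt (top_le_iff.1 (e ▸ hXY))
  have key : ∀ H : Subgroup G, H ≠ ⊤ → NC X H → H ≤ Y := by
    intro H hH hXH
    have hlt : Nat.card H < n := by
      rw [← hn]
      exact Finite.card_subtype_lt (SetLike.not_le_iff_exists.1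
        (fun h => hH (top_le_iff.1 h))).choose_spec.2
    have h1 : NC (X.subgroupOf H) ⊤ := by
      refine ⟨le_top, fun L hL _ hN => ?_⟩
      have hLn : L.Normal := normalizer_eq_top_iff.1 (top_le_iff.1 hN)
      have h2 := (nc_iff hXH.1).1 hXH
      exact top_le_iff.1 (h2 ▸ normalClosure_le_normal hL)
    have h3 := ih _ hlt H rfl (X.subgroupOf H) (Y.subgroupOf H) h1 (by
      intro g hg
      rw [cj_subgroupOf] at hg ⊢
      refine comap_mono (hY g ?_)
      have h4 : X.subgroupOf H ⊔ (cj (g : G) X).subgroupOf H ≤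
          (X ⊔ cj (g : G) X).subgroupOf H :=
        sup_le (comap_mono le_sup_left) (comap_mono le_sup_right)
      exact mem_subgroupOf.1 (h4 hg))
    exact subgroupOf_eq_top.1 h3
  have uniq := unique_coatom_of_nc X.index X Y rfl hX hXt hYt key
  obtain ⟨M, hM, hYM⟩ := (eq_top_or_exists_le_coatom Y).resolve_left hYt
  have hall : ∀ g : G, cj g X ≤ M := by
    intro g
    rcases eq_top_or_exists_le_coatom (X ⊔ cj g X) with h | ⟨K, hK, hle⟩
    · exact (hY g (h ▸ mem_top g)).trans hYM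
    · rw [← uniq K M hK hM (le_sup_left.trans hle) (hXY.trans hYM)]
      exact le_sup_right.trans hle
  have hcore : X ≤ M.normalCore := by
    intro x hx g
    exact hall g (conj_mem_cj hx)
  have := hX.2 M.normalCore hcore le_top (by rw [normalizer_eq_top])
  exact hM.1 (top_le_iff.1 (this ▸ normalCore_le M))

/-- Bartels: if the normal closure of `X` is the whole group, the strong conjugates generate. -/
theorem bartels {G : Type u} [Group G] [Finite G] (X Y : Subgroup G) (hX : NC X ⊤)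
    (hY : ∀ g : G, g ∈ X ⊔ cj g X → cj g X ≤ Y) : Y = ⊤ :=
  aux _ G rfl X Y hX hY

/-- Bartels inside a subgroup. -/
theorem bartels_le {G : Type u} [Group G] [Finite G] (X Y H : Subgroup G) (hX : NC X H)
    (hY : ∀ g ∈ H, g ∈ X ⊔ cj g X → cj g X ≤ Y) : H ≤ Y := by
  have h1 : NC (X.subgroupOf H) ⊤ := by
    refine ⟨le_top, fun L hL _ hN => ?_⟩
    have hLn : L.Normal := normalizer_eq_top_iff.1 (top_le_iff.1 hN)
    have h2 := (nc_iff hX.1).1 hX
    exact top_le_iff.1 (h2 ▸ normalClosure_le_normal hL)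
  have h3 := bartels (X.subgroupOf H) (Y.subgroupOf H) h1 (by
    intro g hg
    rw [cj_subgroupOf] at hg ⊢
    refine comap_mono (hY g g.2 ?_)
    have h4 : X.subgroupOf H ⊔ (cj (g : G) X).subgroupOf H ≤
        (X ⊔ cj (g : G) X).subgroupOf H :=
      sup_le (comap_mono le_sup_left) (comap_mono le_sup_right)
    exact mem_subgroupOf.1 (h4 hg))
  exact subgroupOf_eq_top.1 h3

/-- two involutions conjugate in the group they generate have a product of odd order -/
theorem odd_of_conj {G : Type u} [Group G] {t s g : G} (ht : t * t = 1) (hs : s * s = 1)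
    (hg : g ∈ zpowers t ⊔ zpowers s) (e : g * t * g⁻¹ = s) : Odd (orderOf (t * s)) := by
  set r := t * s with hr
  have hti : t⁻¹ = t := inv_eq_of_mul_eq_one_right ht
  have hsi : s⁻¹ = s := inv_eq_of_mul_eq_one_right hs
  have h1 : t * r * t⁻¹ = r⁻¹ := by
    rw [hr, mul_inv_rev, hti, hsi, ← mul_assoc, ht, one_mul]
  have h2 : ∀ k : ℤ, t * r ^ k = r ^ (-k) * t := by
    intro k
    have : t * r ^ k * t⁻¹ = r ^ (-k) := by
      rw [← conj_zpow, h1, inv_zpow']
    rw [← this]; group
  let P : Subgroup G :=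
    { carrier := {x | ∃ k : ℤ, x = r ^ k ∨ x = r ^ k * t}
      one_mem' := ⟨0, Or.inl (by simp)⟩
      mul_mem' := by
        rintro a b ⟨k, rfl | rfl⟩ ⟨l, rfl | rfl⟩
        · exact ⟨k + l, Or.inl (zpow_add _ _ _).symm⟩
        · exact ⟨k + l, Or.inr (by rw [zpow_add, mul_assoc])⟩
        · exact ⟨k + -l, Or.inr (by rw [mul_assoc, h2, zpow_add, mul_assoc])⟩
        · refine ⟨k + -l, Or.inl ?_⟩
          rw [mul_assoc, ← mul_assoc t, h2, mul_assoc, ht, mul_one, zpow_add]
      inv_mem' := by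
        rintro a ⟨k, rfl | rfl⟩
        · exact ⟨-k, Or.inl (zpow_neg _ _).symm⟩
        · refine ⟨k, Or.inr ?_⟩
          rw [mul_inv_rev, hti, ← zpow_neg, h2, neg_neg] }
  have hsr : s = r ^ (-1 : ℤ) * t := by
    rw [← h2, zpow_one, hr, ← mul_assoc, ht, one_mul]
  have hP : zpowers t ⊔ zpowers s ≤ P :=
    sup_le (zpowers_le.2 ⟨0, Or.inr (by simp)⟩) (zpowers_le.2 ⟨-1, Or.inr hsr⟩)
  obtain ⟨k, hk⟩ := hP hg
  have h3 : r ^ k * t * (r ^ k)⁻¹ = s := by
    rcases hk with rfl | rfl
    · exact e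
    · rw [← e]; group
  have h4 : r ^ (2 * k + 1) = 1 := by
    rw [← zpow_neg, mul_assoc, h2, neg_neg, ← mul_assoc, hsr, ← zpow_add] at h3
    have h5 := mul_right_cancel h3
    have : r ^ (2 * k + 1) = r ^ (k + k) * r ^ (1 : ℤ) := by
      rw [← zpow_add]; congr 1; ring
    rw [this, h5, ← zpow_add]; simp
  have h6 : (orderOf r : ℤ) ∣ 2 * k + 1 := orderOf_dvd_iff_zpow_eq_one.2 h4
  rw [← Nat.not_even_iff_odd]
  intro hev
  have h7 : (2 : ℤ) ∣ (orderOf r : ℤ) := by exact_mod_cast hev.two_dvd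
  have := h7.trans h6
  omega

end Cfsg.Agent.BART
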